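import Cfsg.Agent.M24.Scan
import Cfsg.Agent.M24.ClassData
import Cfsg.Agent.Golay.Mathieu

/-!
Elements of order 2 and 3 in M24: each is conjugate to one of two representatives.
-/

set_option autoImplicit false

namespace Cfsg.Agent.M24

open Cfsg Cfsg.Agent.Golay
open scoped Pointwise

theorem exists_to_base_five' (a b c d e : GolayPt) (hn : [a, b, c, d, e].Nodup) :
    ∃ k ∈ M24, k a = basePt 0 ∧ k b = basePt 1 ∧ k c = basePt 2 ∧ k d = basePt 3 ∧
      k e = basePt 4 := by
  obtain ⟨k, hk, h⟩ := exists_to_base_five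
    ⟨fun i => [a, b, c, d, e].get i, fun i j h => by
      exact hn.injective_get h⟩
  exact ⟨k, hk, h 0, h 1, h 2, h 3, h 4⟩

/-- Conjugation transports images. -/
theorem conj_apply_eq {k g : Equiv.Perm GolayPt} {x y u v : GolayPt} (hx : k x = u) (hy : k y = v)
    (h : g x = y) : (k * g * k⁻¹) u = v := by
  rw [← hx, Equiv.Perm.mul_apply, Equiv.Perm.mul_apply, Equiv.Perm.coe_inv,
    Equiv.symm_apply_apply, h, hy]

/-- The test for `g ^ n = 1` on the base. -/
def powOne (n : ℕ) (f : ℕ → ℕ) : Bool := allBase fun i => Nat.beq (powBase f n i) i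

theorem powOne_iff {g : Equiv.Perm GolayPt} (hg : g ∈ M24) (n : ℕ) :
    powOne n (posFun g) = true ↔ g ^ n = 1 := by
  rw [powOne, allBase_iff]
  constructor
  · intro h
    refine eq_of_base (pow_mem hg n) (one_mem _) fun j hj => ptIdx_injective ?_
    have := Nat.eq_of_beq_eq_true (h j hj)
    rwa [← ptIdx_basePt j hj, powBase_eq] at this
  · intro h j hj
    rw [← ptIdx_basePt j hj, powBase_eq, h]
    exact Nat.beq_refl _

theorem powOne_congr {f f' : ℕ → ℕ} (h : ∀ i < 24, f i = f' i) (h24 : ∀ i < 24, f i < 24)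
    (n : ℕ) : powOne n f = powOne n f' :=
  allBase_congr fun j hj => by rw [(powBase_congr h h24 n _ (basePos_lt j hj)).1]

theorem posFun_base_iff (g : Equiv.Perm GolayPt) {i j : ℕ} (hi : i < 7) (hj : j < 7) :
    posFun g (basePos i) = basePos j ↔ g (basePt i) = basePt j := by
  rw [← ptIdx_basePt i hi, ← ptIdx_basePt j hj, posFun_ptIdx]
  exact ptIdx_injective.eq_iff

/-- Whether the permutation of a path is the conjugate of `R` by `h`, read on the base. -/
def conjBase (R h : ℕ) (f : ℕ → ℕ) : Bool :=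
  allBase fun i => Nat.beq (f (papp h i)) (papp h (papp R i))

theorem conjBase_spec {R hc : ℕ} {r g : Equiv.Perm GolayPt} {P : List ℕ} (hr : Rep R r)
    (hrm : r ∈ M24) (hgood : GoodTab hc = true) (hg : g ∈ M24) (hP : RepPath P g)
    (ht : conjBase R hc (act P) = true) : ∃ h ∈ M24, g = h * r * h⁻¹ := by
  obtain ⟨h, hh, hrep⟩ := rep_of_good hgood
  rw [conjBase, allBase_iff] at ht
  refine ⟨h, hh, eq_mul_inv_iff_mul_eq.mpr (eq_of_base (mul_mem hg hh) (mul_mem hh hrm)
    fun j hj => ptIdx_injective ?_)⟩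
  have := Nat.eq_of_beq_eq_true (ht j hj)
  rw [← ptIdx_basePt j hj, ← hrep, ← hP, ← hr, ← hrep] at this
  exact this

/-- The search result and a certificate agree, entry by entry. -/
def checkCert (R1 R0 : ℕ) : List (List ℕ) → List (Bool × ℕ) → Bool
  | [], [] => true
  | Q :: Qs, e :: es => conjBase (bif e.1 then R1 else R0) e.2 (act Q) && checkCert R1 R0 Qs es
  | _, _ => false

theorem checkCert_spec {R1 R0 : ℕ} : ∀ {l : List (List ℕ)} {cs : List (Bool × ℕ)},
    checkCert R1 R0 l cs = true →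
      ∀ Q ∈ l, ∃ e ∈ cs, conjBase (bif e.1 then R1 else R0) e.2 (act Q) = true
  | [], _, _, Q, hQ => absurd hQ List.not_mem_nil
  | _ :: _, [], h, _, _ => by simp [checkCert] at h
  | P :: l, e :: cs, h, Q, hQ => by
    rw [checkCert, Bool.and_eq_true] at h
    rcases List.mem_cons.mp hQ with rfl | hQ
    · exact ⟨e, List.mem_cons_self, h.1⟩
    · obtain ⟨e', he, h'⟩ := checkCert_spec h.2 Q hQ
      exact ⟨e', List.mem_cons_of_mem _ he, h'⟩

theorem basePos_ne : ∀ j < 7, ∀ i < 7, i ≠ j → basePos j ≠ basePos i := by decide +kernel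

/-- Normalised elements of order dividing 3. -/
def NormThree (g : Equiv.Perm GolayPt) : Prop :=
  g (basePt 0) = basePt 1 ∧ g (basePt 1) = basePt 2 ∧ g (basePt 2) = basePt 0 ∧
    (g (basePt 3) = basePt 3 ∨ g (basePt 3) = basePt 4) ∧ g ^ 3 = 1

/-- Pruning for normalised elements of order 3. -/
def okThree (im : List ℕ) : Bool :=
  imgOK im 0 (Nat.beq (basePos 1)) && imgOK im 1 (Nat.beq (basePos 2)) &&
    imgOK im 2 (Nat.beq (basePos 0)) &&
    imgOK im 3 (fun x => Nat.beq (basePos 3) x || Nat.beq (basePos 4) x)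

/-- Full test for normalised elements of order 3. -/
def fullThree (f : ℕ → ℕ) : Bool :=
  Nat.beq (f (basePos 0)) (basePos 1) && Nat.beq (f (basePos 1)) (basePos 2) &&
    Nat.beq (f (basePos 2)) (basePos 0) &&
    (Nat.beq (f (basePos 3)) (basePos 3) || Nat.beq (f (basePos 3)) (basePos 4)) &&
    powOne 3 f

theorem tests_three : ScanTests NormThree okThree fullThree := by
  refine ⟨fun f f' h h24 => ?_, fun g hg => ?_, fun g _ hp k _ => ?_⟩
  · simp only [fullThree, h _ (basePos_lt 0 (by norm_num)), h _ (basePos_lt 1 (by norm_num)),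
      h _ (basePos_lt 2 (by norm_num)), h _ (basePos_lt 3 (by norm_num)), powOne_congr h h24]
  · simp only [fullThree, NormThree, Bool.and_eq_true, Bool.or_eq_true, Nat.beq_eq, powOne_iff hg,
      posFun_base_iff g (show (0 : ℕ) < 7 by norm_num) (show (1 : ℕ) < 7 by norm_num),
      posFun_base_iff g (show (1 : ℕ) < 7 by norm_num) (show (2 : ℕ) < 7 by norm_num),
      posFun_base_iff g (show (2 : ℕ) < 7 by norm_num) (show (0 : ℕ) < 7 by norm_num),
      posFun_base_iff g (show (3 : ℕ) < 7 by norm_num) (show (3 : ℕ) < 7 by norm_num),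
      posFun_base_iff g (show (3 : ℕ) < 7 by norm_num) (show (4 : ℕ) < 7 by norm_num), and_assoc]
  · obtain ⟨h0, h1, h2, h3, -⟩ := hp
    simp only [okThree, Bool.and_eq_true]
    refine ⟨⟨⟨imgOK_baseImages _ _ _ _ ?_, imgOK_baseImages _ _ _ _ ?_⟩,
      imgOK_baseImages _ _ _ _ ?_⟩, imgOK_baseImages _ _ _ _ ?_⟩
    · rw [h0, ptIdx_basePt 1 (by norm_num)]; simp
    · rw [h1, ptIdx_basePt 2 (by norm_num)]; simp
    · rw [h2, ptIdx_basePt 0 (by norm_num)]; simp
    · rcases h3 with h | h <;> rw [h]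
      · rw [ptIdx_basePt 3 (by norm_num)]; simp
      · rw [ptIdx_basePt 4 (by norm_num)]; simp

/-- Normalised involutions. -/
def NormTwo (g : Equiv.Perm GolayPt) : Prop :=
  g (basePt 0) = basePt 1 ∧ g (basePt 1) = basePt 0 ∧
    g (basePt 2) = basePt 3 ∧ g (basePt 3) = basePt 2 ∧ g ^ 2 = 1

/-- Pruning for normalised involutions. -/
def okTwo (im : List ℕ) : Bool :=
  imgOK im 0 (Nat.beq (basePos 1)) && imgOK im 1 (Nat.beq (basePos 0)) &&
    imgOK im 2 (Nat.beq (basePos 3)) && imgOK im 3 (Nat.beq (basePos 2))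

/-- Full test for normalised involutions. -/
def fullTwo (f : ℕ → ℕ) : Bool :=
  Nat.beq (f (basePos 0)) (basePos 1) && Nat.beq (f (basePos 1)) (basePos 0) &&
    Nat.beq (f (basePos 2)) (basePos 3) && Nat.beq (f (basePos 3)) (basePos 2) &&
    powOne 2 f

theorem tests_two : ScanTests NormTwo okTwo fullTwo := by
  refine ⟨fun f f' h h24 => ?_, fun g hg => ?_, fun g _ hp k _ => ?_⟩
  · simp only [fullTwo, h _ (basePos_lt 0 (by norm_num)), h _ (basePos_lt 1 (by norm_num)),
      h _ (basePos_lt 2 (by norm_num)), h _ (basePos_lt 3 (by norm_num)), powOne_congr h h24]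
  · simp only [fullTwo, NormTwo, Bool.and_eq_true, Nat.beq_eq, powOne_iff hg,
      posFun_base_iff g (show (0 : ℕ) < 7 by norm_num) (show (1 : ℕ) < 7 by norm_num),
      posFun_base_iff g (show (1 : ℕ) < 7 by norm_num) (show (0 : ℕ) < 7 by norm_num),
      posFun_base_iff g (show (2 : ℕ) < 7 by norm_num) (show (3 : ℕ) < 7 by norm_num),
      posFun_base_iff g (show (3 : ℕ) < 7 by norm_num) (show (2 : ℕ) < 7 by norm_num), and_assoc]
  · obtain ⟨h0, h1, h2, h3, -⟩ := hp
    simp only [okTwo, Bool.and_eq_true]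
    refine ⟨⟨⟨imgOK_baseImages _ _ _ _ ?_, imgOK_baseImages _ _ _ _ ?_⟩,
      imgOK_baseImages _ _ _ _ ?_⟩, imgOK_baseImages _ _ _ _ ?_⟩
    · rw [h0, ptIdx_basePt 1 (by norm_num)]; simp
    · rw [h1, ptIdx_basePt 0 (by norm_num)]; simp
    · rw [h2, ptIdx_basePt 3 (by norm_num)]; simp
    · rw [h3, ptIdx_basePt 2 (by norm_num)]; simp

/-- A transposition of two base points. -/
def NormSwap (g : Equiv.Perm GolayPt) : Prop :=
  g (basePt 0) = basePt 1 ∧ ∀ p, p ≠ basePt 0 → p ≠ basePt 1 → g p = p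

/-- Pruning for a transposition. -/
def okSwap (im : List ℕ) : Bool :=
  imgOK im 0 (Nat.beq (basePos 1)) && imgOK im 2 (Nat.beq (basePos 2)) &&
    imgOK im 3 (Nat.beq (basePos 3))

/-- Full test for a transposition. -/
def fullSwap (f : ℕ → ℕ) : Bool :=
  Nat.beq (f (basePos 0)) (basePos 1) &&
    (List.range 24).all fun i =>
      Nat.beq i (basePos 0) || Nat.beq i (basePos 1) || Nat.beq (f i) i

theorem tests_swap : ScanTests NormSwap okSwap fullSwap := by
  refine ⟨fun f f' h _ => ?_, fun g _ => ?_, fun g _ hp k _ => ?_⟩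
  · simp only [fullSwap, h _ (basePos_lt 0 (by norm_num))]
    congr 1
    rw [Bool.eq_iff_iff, List.all_eq_true, List.all_eq_true]
    refine forall_congr' fun i => ⟨fun e hi => ?_, fun e hi => ?_⟩ <;>
      simpa [h i (List.mem_range.mp hi)] using e hi
  · simp only [fullSwap, NormSwap, Bool.and_eq_true, Bool.or_eq_true, List.all_eq_true,
      List.mem_range, Nat.beq_eq,
      posFun_base_iff g (show (0 : ℕ) < 7 by norm_num) (show (1 : ℕ) < 7 by norm_num)]
    refine and_congr_right fun _ => ⟨fun h i hi => ?_, fun h p p0 p1 => ?_⟩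
    · by_cases e0 : ptOf i = basePt 0
      · exact Or.inl (Or.inl (by rw [← ptIdx_basePt 0 (by norm_num), ← e0, ptIdx_ptOf i hi]))
      by_cases e1 : ptOf i = basePt 1
      · exact Or.inl (Or.inr (by rw [← ptIdx_basePt 1 (by norm_num), ← e1, ptIdx_ptOf i hi]))
      refine Or.inr ?_
      rw [posFun, h _ e0 e1, ptIdx_ptOf i hi]
    · rcases h _ (ptIdx_lt p) with (e | e) | e
      · rw [← ptIdx_basePt 0 (by norm_num)] at e; exact absurd (ptIdx_injective e) p0
      · rw [← ptIdx_basePt 1 (by norm_num)] at e; exact absurd (ptIdx_injective e) p1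
      · rw [posFun_ptIdx] at e; exact ptIdx_injective e
  · have hne : ∀ j < 7, 2 ≤ j → g (basePt j) = basePt j := fun j hj h2 => by
      refine hp.2 _ (fun e => ?_) (fun e => ?_)
      · have h' := congrArg ptIdx e
        rw [ptIdx_basePt j hj, ptIdx_basePt 0 (by norm_num)] at h'
        exact basePos_ne j hj 0 (by norm_num) (by omega) h'
      · have h' := congrArg ptIdx e
        rw [ptIdx_basePt j hj, ptIdx_basePt 1 (by norm_num)] at h'
        exact basePos_ne j hj 1 (by norm_num) (by omega) h'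
    simp only [okSwap, Bool.and_eq_true]
    refine ⟨⟨imgOK_baseImages _ _ _ _ ?_, imgOK_baseImages _ _ _ _ ?_⟩,
      imgOK_baseImages _ _ _ _ ?_⟩
    · rw [hp.1, ptIdx_basePt 1 (by norm_num)]; simp
    · rw [hne 2 (by norm_num) le_rfl, ptIdx_basePt 2 (by norm_num)]; simp
    · rw [hne 3 (by norm_num) (by norm_num), ptIdx_basePt 3 (by norm_num)]; simp

theorem no_swap : scan okSwap fullSwap = [] := by decide +kernel

theorem three_cover : checkCert ord3Fix6 ord3Fix0 (scan okThree fullThree) ord3Cert = true := by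
  decide +kernel

theorem two_cover : checkCert ord2Fix8 ord2Fix0 (scan okTwo fullTwo) ord2Cert = true := by
  decide +kernel

theorem cert_good : ∀ h ∈ ((ord3Cert ++ ord2Cert).map Prod.snd) ++
    [ord3Fix6, ord3Fix0, ord2Fix8, ord2Fix0], GoodTab h = true := by
  decide +kernel

theorem reps_good : ∀ h ∈ [ord3Fix6, ord3Fix0, ord2Fix8, ord2Fix0], GoodTab h = true :=
  fun h hh => cert_good h (List.mem_append_right _ hh)

/-- The permutation of a table. -/
noncomputable def elemOf (t : ℕ) : Equiv.Perm GolayPt :=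
  if h : GoodTab t = true then (rep_of_good h).choose else 1

theorem elemOf_spec {t : ℕ} (h : GoodTab t = true) : elemOf t ∈ M24 ∧ Rep t (elemOf t) := by
  rw [elemOf, dif_pos h]
  exact (rep_of_good h).choose_spec

theorem exists_moved {g : Equiv.Perm GolayPt} (h : g ≠ 1) : ∃ x, g x ≠ x := by
  by_contra hh
  push Not at hh
  exact h (Equiv.ext hh)

theorem exists_outside (l : List GolayPt) (hl : l.length < 24) : ∃ y, y ∉ l := by
  by_contra hh
  push Not at hh
  have h1 : (Finset.univ : Finset GolayPt) ⊆ l.toFinset := fun y _ => List.mem_toFinset.mpr (hh y)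
  have := (Finset.card_le_card h1).trans l.toFinset_card_le
  rw [Finset.card_univ, Golay.card_golayPt] at this
  omega

/-- Every element of order 3 is conjugate to one of the two representatives. -/
theorem order_three_cases {g : Equiv.Perm GolayPt} (hg : g ∈ M24) (h3 : orderOf g = 3) :
    ∃ h ∈ M24, g = h * elemOf ord3Fix6 * h⁻¹ ∨ g = h * elemOf ord3Fix0 * h⁻¹ := by
  have hpow : g ^ 3 = 1 := h3 ▸ pow_orderOf_eq_one g
  obtain ⟨x, hx⟩ := exists_moved (g := g) (fun h => by rw [h, orderOf_one] at h3; omega)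
  have hcube : ∀ p, g (g (g p)) = p := fun p => by
    have := DFunLike.congr_fun hpow p
    simpa [pow_succ] using this
  have e1 : g (g x) ≠ x := fun h => hx (by rw [← h, hcube, h])
  have e2 : g (g x) ≠ g x := fun h => hx (g.injective h)
  obtain ⟨y, hy⟩ := exists_outside [x, g x, g (g x)] (by simp)
  simp only [List.mem_cons, List.not_mem_nil, or_false, not_or] at hy
  obtain ⟨z, hz, hzy⟩ : ∃ z, z ∉ [x, g x, g (g x), y] ∧ (g y = y ∨ g y = z) := by
    by_cases hgy : g y = y
    · obtain ⟨z, hz⟩ := exists_outside [x, g x, g (g x), y] (by simp)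
      exact ⟨z, hz, Or.inl hgy⟩
    · refine ⟨g y, ?_, Or.inr rfl⟩
      simp only [List.mem_cons, List.not_mem_nil, or_false, not_or]
      exact ⟨fun h => hy.2.2 (by rw [← h, hcube]), fun h => hy.1 (g.injective h),
        fun h => hy.2.1 (g.injective h), hgy⟩
  simp only [List.mem_cons, List.not_mem_nil, or_false, not_or] at hz
  obtain ⟨k, hk, k0, k1, k2, k3, k4⟩ := exists_to_base_five' x (g x) (g (g x)) y z (by
    simp [Ne.symm hx, Ne.symm e1, Ne.symm e2, Ne.symm hy.1, Ne.symm hy.2.1, Ne.symm hy.2.2,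
      Ne.symm hz.1, Ne.symm hz.2.1, Ne.symm hz.2.2.1, Ne.symm hz.2.2.2])
  have hN : NormThree (k * g * k⁻¹) := by
    refine ⟨conj_apply_eq k0 k1 rfl, conj_apply_eq k1 k2 rfl, conj_apply_eq k2 k0 (hcube x), ?_, ?_⟩
    · rcases hzy with h | h
      · exact Or.inl (conj_apply_eq k3 k3 h)
      · exact Or.inr (conj_apply_eq k3 k4 h)
    · rw [conj_pow, hpow]; group
  have hgk : k * g * k⁻¹ ∈ M24 := mul_mem (mul_mem hk hg) (inv_mem hk)
  obtain ⟨Q, hQ, hQr⟩ := (scan_spec tests_three).2.1 _ hgk hN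
  obtain ⟨e, he, hc⟩ := checkCert_spec three_cover Q hQ
  have hgood := cert_good e.2 (List.mem_append_left _ (List.mem_map_of_mem
    (List.mem_append_left _ he)))
  rcases e with ⟨_ | _, hc'⟩
  · obtain ⟨h, hh, e⟩ := conjBase_spec (elemOf_spec (reps_good ord3Fix0 (by simp))).2
      (elemOf_spec (reps_good ord3Fix0 (by simp))).1 hgood hgk hQr hc
    exact ⟨k⁻¹ * h, mul_mem (inv_mem hk) hh, Or.inr (by
      rw [show g = k⁻¹ * (k * g * k⁻¹) * k by group, e]; group)⟩
  · obtain ⟨h, hh, e⟩ := conjBase_spec (elemOf_spec (reps_good ord3Fix6 (by simp))).2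
      (elemOf_spec (reps_good ord3Fix6 (by simp))).1 hgood hgk hQr hc
    exact ⟨k⁻¹ * h, mul_mem (inv_mem hk) hh, Or.inl (by
      rw [show g = k⁻¹ * (k * g * k⁻¹) * k by group, e]; group)⟩

/-- Every involution is conjugate to one of the two representatives. -/
theorem order_two_cases {g : Equiv.Perm GolayPt} (hg : g ∈ M24) (h2 : orderOf g = 2) :
    ∃ h ∈ M24, g = h * elemOf ord2Fix8 * h⁻¹ ∨ g = h * elemOf ord2Fix0 * h⁻¹ := by
  have hpow : g ^ 2 = 1 := h2 ▸ pow_orderOf_eq_one g
  obtain ⟨x, hx⟩ := exists_moved (g := g) (fun h => by rw [h, orderOf_one] at h2; omega)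
  have hsq : ∀ p, g (g p) = p := fun p => by
    have := DFunLike.congr_fun hpow p
    simpa [pow_succ] using this
  obtain ⟨y, hyx, hgy⟩ : ∃ y, (y ≠ x ∧ y ≠ g x) ∧ g y ≠ y := by
    by_contra hall
    push Not at hall
    obtain ⟨a, ha⟩ := exists_outside [x, g x] (by simp)
    obtain ⟨b, hb⟩ := exists_outside [x, g x, a] (by simp)
    obtain ⟨c, hc⟩ := exists_outside [x, g x, a, b] (by simp)
    simp only [List.mem_cons, List.not_mem_nil, or_false, not_or] at ha hb hc
    obtain ⟨k, hk, k0, k1, -, -, -⟩ := exists_to_base_five' x (g x) a b c (by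
      simp [Ne.symm hx, Ne.symm ha.1, Ne.symm ha.2, Ne.symm hb.1, Ne.symm hb.2.1, Ne.symm hb.2.2,
        Ne.symm hc.1, Ne.symm hc.2.1, Ne.symm hc.2.2.1, Ne.symm hc.2.2.2])
    have hN : NormSwap (k * g * k⁻¹) := by
      refine ⟨conj_apply_eq k0 k1 rfl, fun p p0 p1 => ?_⟩
      have e : k (k⁻¹ p) = p := k.apply_symm_apply _
      refine conj_apply_eq e e (hall _ ⟨fun he => p0 ?_, fun he => p1 ?_⟩)
      · rw [← k0, ← he, e]
      · rw [← k1, ← he, e]
    obtain ⟨Q, hQ, -⟩ := (scan_spec tests_swap).2.1 _ (mul_mem (mul_mem hk hg) (inv_mem hk)) hN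
    rw [no_swap] at hQ
    exact absurd hQ List.not_mem_nil
  have hzx : g y ≠ x ∧ g y ≠ g x :=
    ⟨fun h => hyx.2 (by rw [← h, hsq]), fun h => hyx.1 (g.injective h)⟩
  obtain ⟨w, hw⟩ := exists_outside [x, g x, y, g y] (by simp)
  simp only [List.mem_cons, List.not_mem_nil, or_false, not_or] at hw
  obtain ⟨k, hk, k0, k1, k2, k3, -⟩ := exists_to_base_five' x (g x) y (g y) w (by
    simp [Ne.symm hx, Ne.symm hyx.1, Ne.symm hyx.2, Ne.symm hzx.1, Ne.symm hzx.2, Ne.symm hgy,
      Ne.symm hw.1, Ne.symm hw.2.1, Ne.symm hw.2.2.1, Ne.symm hw.2.2.2])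
  have hN : NormTwo (k * g * k⁻¹) := by
    refine ⟨conj_apply_eq k0 k1 rfl, conj_apply_eq k1 k0 (hsq x), conj_apply_eq k2 k3 rfl,
      conj_apply_eq k3 k2 (hsq y), ?_⟩
    rw [conj_pow, hpow]; group
  have hgk : k * g * k⁻¹ ∈ M24 := mul_mem (mul_mem hk hg) (inv_mem hk)
  obtain ⟨Q, hQ, hQr⟩ := (scan_spec tests_two).2.1 _ hgk hN
  obtain ⟨e, he, hc⟩ := checkCert_spec two_cover Q hQ
  have hgood := cert_good e.2 (List.mem_append_left _ (List.mem_map_of_mem
    (List.mem_append_right _ he)))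
  rcases e with ⟨_ | _, hc'⟩
  · obtain ⟨h, hh, e⟩ := conjBase_spec (elemOf_spec (reps_good ord2Fix0 (by simp))).2
      (elemOf_spec (reps_good ord2Fix0 (by simp))).1 hgood hgk hQr hc
    exact ⟨k⁻¹ * h, mul_mem (inv_mem hk) hh, Or.inr (by
      rw [show g = k⁻¹ * (k * g * k⁻¹) * k by group, e]; group)⟩
  · obtain ⟨h, hh, e⟩ := conjBase_spec (elemOf_spec (reps_good ord2Fix8 (by simp))).2
      (elemOf_spec (reps_good ord2Fix8 (by simp))).1 hgood hgk hQr hc
    exact ⟨k⁻¹ * h, mul_mem (inv_mem hk) hh, Or.inl (by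
      rw [show g = k⁻¹ * (k * g * k⁻¹) * k by group, e]; group)⟩

/-- The fixed points of a table. -/
theorem fix_conj (h g : Equiv.Perm GolayPt) :
    (Finset.univ.filter fun p => (h * g * h⁻¹) p = p).card =
      (Finset.univ.filter fun p => g p = p).card := by
  have e : (Finset.univ.filter fun p => (h * g * h⁻¹) p = p) =
      (Finset.univ.filter fun p => g p = p).map h.toEmbedding := by
    ext p
    rw [Finset.mem_map_equiv, Finset.mem_filter, Finset.mem_filter, Equiv.Perm.mul_apply,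
      Equiv.Perm.mul_apply, Equiv.Perm.coe_inv]
    simp only [Finset.mem_univ, true_and]
    exact (Equiv.eq_symm_apply h).symm
  rw [e, Finset.card_map]

/-- The number of fixed positions of a coded permutation. -/
def fixCount (t : ℕ) : ℕ := (List.range 24).countP fun i => Nat.beq (papp t i) i

theorem fixCount_eq {t : ℕ} (ht : GoodTab t = true) :
    (Finset.univ.filter fun p => elemOf t p = p).card = fixCount t := by
  have hr := (elemOf_spec ht).2
  have e : (Finset.univ.filter fun p => elemOf t p = p).image ptIdx =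
      ((List.range 24).filter fun i => Nat.beq (papp t i) i).toFinset := by
    ext i
    simp only [Finset.mem_image, Finset.mem_filter, Finset.mem_univ, true_and, List.mem_toFinset,
      List.mem_filter, List.mem_range, Nat.beq_eq]
    constructor
    · rintro ⟨p, hp, rfl⟩
      exact ⟨ptIdx_lt p, by rw [← hr, hp]⟩
    · rintro ⟨hi, h⟩
      exact ⟨ptOf i, ptIdx_injective (by rw [hr, ptIdx_ptOf i hi, h]), ptIdx_ptOf i hi⟩
  rw [← Finset.card_image_of_injective _ ptIdx_injective, e,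
    List.toFinset_card_of_nodup (List.nodup_range.filter _), fixCount, List.countP_eq_length_filter]

theorem rep_fix : fixCount ord3Fix6 = 6 ∧ fixCount ord3Fix0 = 0 ∧ fixCount ord2Fix8 = 8 ∧
    fixCount ord2Fix0 = 0 := by decide +kernel

theorem conj_three_fix6 {g : Equiv.Perm GolayPt} (hg : g ∈ M24) (h3 : orderOf g = 3)
    (hf : (Finset.univ.filter fun p => g p = p).card = 6) :
    ∃ h ∈ M24, g = h * elemOf ord3Fix6 * h⁻¹ := by
  obtain ⟨h, hh, e | e⟩ := order_three_cases hg h3
  · exact ⟨h, hh, e⟩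
  · rw [e, fix_conj, fixCount_eq (reps_good _ (by simp)), rep_fix.2.1] at hf
    exact absurd hf (by norm_num)

theorem conj_three_fix0 {g : Equiv.Perm GolayPt} (hg : g ∈ M24) (h3 : orderOf g = 3)
    (hf : ∀ p, g p ≠ p) : ∃ h ∈ M24, g = h * elemOf ord3Fix0 * h⁻¹ := by
  have hf' : (Finset.univ.filter fun p => g p = p).card = 0 := by simp [hf]
  obtain ⟨h, hh, e | e⟩ := order_three_cases hg h3
  · rw [e, fix_conj, fixCount_eq (reps_good _ (by simp)), rep_fix.1] at hf'
    exact absurd hf' (by norm_num)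
  · exact ⟨h, hh, e⟩

theorem conj_two_fix8 {g : Equiv.Perm GolayPt} (hg : g ∈ M24) (h2 : orderOf g = 2)
    (hf : (Finset.univ.filter fun p => g p = p).card = 8) :
    ∃ h ∈ M24, g = h * elemOf ord2Fix8 * h⁻¹ := by
  obtain ⟨h, hh, e | e⟩ := order_two_cases hg h2
  · exact ⟨h, hh, e⟩
  · rw [e, fix_conj, fixCount_eq (reps_good _ (by simp)), rep_fix.2.2.2] at hf
    exact absurd hf (by norm_num)

theorem conj_two_fix0 {g : Equiv.Perm GolayPt} (hg : g ∈ M24) (h2 : orderOf g = 2)
    (hf : ∀ p, g p ≠ p) : ∃ h ∈ M24, g = h * elemOf ord2Fix0 * h⁻¹ := by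
  have hf' : (Finset.univ.filter fun p => g p = p).card = 0 := by simp [hf]
  obtain ⟨h, hh, e | e⟩ := order_two_cases hg h2
  · rw [e, fix_conj, fixCount_eq (reps_good _ (by simp)), rep_fix.2.2.1] at hf'
    exact absurd hf' (by norm_num)
  · exact ⟨h, hh, e⟩

end Cfsg.Agent.M24
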