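import Cfsg.Agent.Golay.M24
import Cfsg.Agent.M24.TransData

/-!
Permutations of the 24 points as numbers (five bits for each position), acting on positions and
on bit masks.
-/

set_option autoImplicit false

namespace Cfsg.Agent.M24

open Cfsg Cfsg.Agent.Golay
open scoped Pointwise

/-- The image of a position under a coded permutation. -/
def papp (t i : ℕ) : ℕ := Nat.land (Nat.shiftRight t (5 * i)) 31

/-- Build a number from a function on positions below `n`, five bits each. -/
def pbuild (f : ℕ → ℕ) : ℕ → ℕ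
  | 0 => 0
  | n + 1 => Nat.lor (pbuild f n) (Nat.shiftLeft (f n) (5 * n))

/-- The image of a bit mask under a coded permutation. -/
def pimgAux (t m : ℕ) : ℕ → ℕ
  | 0 => 0
  | n + 1 => bif Nat.testBit m n then Nat.lor (pimgAux t m n) (Nat.shiftLeft 1 (papp t n))
      else pimgAux t m n

/-- The image of a bit mask. -/
def pimg (t m : ℕ) : ℕ := pimgAux t m 24

/-- Apply a path of coded permutations, the head acting last. -/
def act : List ℕ → ℕ → ℕ
  | [], i => i
  | t :: P, i => papp t (act P i)

/-- `t` is the table of a permutation in M24. -/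
def GoodTab (t : ℕ) : Bool :=
  ((List.range 24).all fun i => Nat.ble (papp t i + 1) 24) &&
    ((List.range 24).all fun j => (List.range 24).any fun i => Nat.beq (papp t i) j) &&
    (rows.all fun r => Nat.beq (enc (pimg t r % 4096)) (pimg t r))

/-- `t` is the table of `g`. -/
def Rep (t : ℕ) (g : Equiv.Perm GolayPt) : Prop := ∀ p, ptIdx (g p) = papp t (ptIdx p)

theorem ptIdx_ptOf : ∀ i < 24, ptIdx (ptOf i) = i := by decide +kernel

theorem ptOf_ptIdx (p : GolayPt) : ptOf (ptIdx p) = p :=
  ptIdx_injective (ptIdx_ptOf _ (ptIdx_lt p))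

theorem testBit_pimgAux (t m : ℕ) : ∀ n j, (pimgAux t m n).testBit j = true ↔
    ∃ i < n, m.testBit i = true ∧ papp t i = j := by
  intro n
  induction n with
  | zero => intro j; simp [pimgAux]
  | succ n ih =>
    intro j
    unfold pimgAux
    cases hm : m.testBit n with
    | false =>
      rw [cond_false, ih j]
      constructor
      · rintro ⟨i, hi, h⟩; exact ⟨i, by omega, h⟩
      · rintro ⟨i, hi, h1, h2⟩
        rcases Nat.lt_succ_iff_lt_or_eq.mp hi with hi | rfl
        · exact ⟨i, hi, h1, h2⟩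
        · rw [hm] at h1; exact absurd h1 Bool.false_ne_true
    | true =>
      rw [cond_true, show Nat.lor (pimgAux t m n) (Nat.shiftLeft 1 (papp t n)) =
        pimgAux t m n ||| 1 <<< papp t n from rfl, Nat.testBit_or, Bool.or_eq_true, ih j,
        Nat.one_shiftLeft, Nat.testBit_two_pow, decide_eq_true_eq]
      constructor
      · rintro (⟨i, hi, h⟩ | h)
        · exact ⟨i, by omega, h⟩
        · exact ⟨n, by omega, hm, h⟩
      · rintro ⟨i, hi, h1, h2⟩
        rcases Nat.lt_succ_iff_lt_or_eq.mp hi with hi | rfl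
        · exact Or.inl ⟨i, hi, h1, h2⟩
        · exact Or.inr h2

theorem rep_of_good {t : ℕ} (h : GoodTab t = true) : ∃ g ∈ M24, Rep t g := by
  simp only [GoodTab, Bool.and_eq_true, List.all_eq_true, List.any_eq_true, List.mem_range,
    Nat.ble_eq, Nat.beq_eq] at h
  obtain ⟨⟨hlt, hsurj⟩, hrows⟩ := h
  let f : GolayPt → GolayPt := fun p => ptOf (papp t (ptIdx p))
  have hf : ∀ p, ptIdx (f p) = papp t (ptIdx p) := fun p =>
    ptIdx_ptOf _ (hlt _ (ptIdx_lt p))
  have hs : Function.Surjective f := by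
    intro q
    obtain ⟨i, hi, e⟩ := hsurj (ptIdx q) (ptIdx_lt q)
    exact ⟨ptOf i, ptIdx_injective (by rw [hf, ptIdx_ptOf i hi, e])⟩
  let g : Equiv.Perm GolayPt := Equiv.ofBijective f ⟨Finite.injective_iff_surjective.mpr hs, hs⟩
  refine ⟨g, mem_M24_of_rows fun r hr => ?_, hf⟩
  have himg : ofBits r ∘ g.symm = ofBits (pimg t r) := by
    funext p
    simp only [Function.comp_apply, ofBits]
    congr 1
    refine propext ⟨fun hb => (testBit_pimgAux t r 24 _).mpr
      ⟨ptIdx (g.symm p), ptIdx_lt _, hb, ?_⟩, fun hb => ?_⟩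
    · rw [← hf (g.symm p)]
      exact congrArg ptIdx (g.apply_symm_apply p)
    · obtain ⟨i, hi, hb', e⟩ := (testBit_pimgAux t r 24 _).mp hb
      have : g (ptOf i) = p := ptIdx_injective (by
        show ptIdx (f (ptOf i)) = ptIdx p
        rw [hf, ptIdx_ptOf i hi, e])
      rw [← this, Equiv.symm_apply_apply, ptIdx_ptOf i hi]
      exact hb'
  show ofBits r ∘ ⇑g.symm ∈ golayCode
  rw [himg, ← hrows r hr]
  exact ofBits_enc_mem _

theorem Rep.papp_lt {t : ℕ} {g : Equiv.Perm GolayPt} (h : Rep t g) {i : ℕ} (hi : i < 24) :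
    papp t i < 24 := by
  have := h (ptOf i)
  rw [ptIdx_ptOf i hi] at this
  exact this ▸ ptIdx_lt _

theorem Rep.pimg_eq {t : ℕ} {g : Equiv.Perm GolayPt} (h : Rep t g) (m : ℕ) :
    g • bitSet m = bitSet (pimg t m) := by
  ext p
  rw [← Finset.inv_smul_mem_iff, Equiv.Perm.smul_def]
  simp only [bitSet, Finset.mem_filter, Finset.mem_univ, true_and, Equiv.Perm.coe_inv]
  rw [pimg, testBit_pimgAux]
  constructor
  · intro hb
    refine ⟨ptIdx (g.symm p), ptIdx_lt _, hb, ?_⟩
    rw [← h, Equiv.apply_symm_apply]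
  · rintro ⟨i, hi, hb, e⟩
    have : g (ptOf i) = p := ptIdx_injective (by rw [h, ptIdx_ptOf i hi, e])
    rw [← this, Equiv.symm_apply_apply, ptIdx_ptOf i hi]
    exact hb

/-- The product of a path. -/
def RepPath (P : List ℕ) (g : Equiv.Perm GolayPt) : Prop := ∀ p, ptIdx (g p) = act P (ptIdx p)

theorem repPath_nil : RepPath [] 1 := fun _ => rfl

theorem act_append (P Q : List ℕ) (i : ℕ) : act (P ++ Q) i = act P (act Q i) := by
  induction P with
  | nil => rfl
  | cons t P ih => simp only [List.cons_append, act, ih]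

theorem RepPath.append {P : List ℕ} {g : Equiv.Perm GolayPt} (h : RepPath P g) {t : ℕ}
    {a : Equiv.Perm GolayPt} (ha : Rep t a) : RepPath (P ++ [t]) (g * a) := by
  intro p
  rw [act_append, Equiv.Perm.mul_apply, h, ha]
  rfl

theorem RepPath.unique {P : List ℕ} {g g' : Equiv.Perm GolayPt} (h : RepPath P g)
    (h' : RepPath P g') : g = g' :=
  Equiv.ext fun p => ptIdx_injective ((h p).trans (h' p).symm)

/-- The position of a base point. -/
def basePos (k : ℕ) : ℕ := baseIdx.getD k 23

theorem ptIdx_basePt : ∀ k < 7, ptIdx (basePt k) = basePos k := by decide +kernel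

theorem basePos_lt : ∀ k < 7, basePos k < 24 := by decide +kernel

theorem transTab_good : ∀ k < 7, ∀ t ∈ transTab.getD k [], GoodTab t = true ∧
    ∀ j < k, papp t (basePos j) = basePos j := by
  decide +kernel

theorem transTab_cover : ∀ k < 7, ∀ y, IsTarget k y →
    ∃ t ∈ transTab.getD k [], papp t (basePos k) = ptIdx y := by
  decide +kernel

theorem transTab_nodup : ∀ k < 7, ((transTab.getD k []).map fun t => papp t (basePos k)).Nodup := by
  decide +kernel

theorem exists_rep_level {k : ℕ} (hk : k < 7) {t : ℕ} (ht : t ∈ transTab.getD k []) :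
    ∃ a ∈ chainStab M24 k, Rep t a := by
  obtain ⟨hg, hfix⟩ := transTab_good k hk t ht
  obtain ⟨a, ha, hr⟩ := rep_of_good hg
  refine ⟨a, mem_chainStab.mpr ⟨ha, fun j hj => ptIdx_injective ?_⟩, hr⟩
  rw [hr, ptIdx_basePt j (by omega), hfix j hj]

end Cfsg.Agent.M24
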