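import Cfsg.Agent.M24.Perm

/-!
Backtrack search over the stabiliser chain of M24, tuned for kernel evaluation: base images are
carried along, and an element is only ever evaluated where a test asks for it. Since an element of
M24 is determined by its images of the seven base points, tests need to look at these only.
-/

set_option autoImplicit false

namespace Cfsg.Agent.M24

open Cfsg Cfsg.Agent.Golay

/-- Each base position with its representatives. -/
def levelTab : List (ℕ × List ℕ) :=
  [(23, transLevel0), (0, transLevel1), (1, transLevel2), (2, transLevel3), (3, transLevel4),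
    (5, transLevel5), (4, transLevel6)]

/-- The positions of the base. -/
def baseList : List ℕ := [23, 0, 1, 2, 3, 5, 4]

/-- The paths that pass the tests, from a given path and its base images. -/
def scanFrom (ok : List ℕ → Bool) (full : (ℕ → ℕ) → Bool) :
    List (ℕ × List ℕ) → List ℕ → List ℕ → List (List ℕ)
  | [], P, _ => bif full (act P) then [P] else []
  | L :: rest, P, im => L.2.flatMap fun t =>
      bif ok (im ++ [act P (papp t L.1)]) then
        scanFrom ok full rest (P ++ [t]) (im ++ [act P (papp t L.1)])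
      else []

/-- The paths that pass both tests. -/
def scan (ok : List ℕ → Bool) (full : (ℕ → ℕ) → Bool) : List (List ℕ) :=
  scanFrom ok full levelTab [] []

/-- The permutation as a map of positions. -/
def posFun (g : Equiv.Perm GolayPt) (i : ℕ) : ℕ := ptIdx (g (ptOf i))

theorem posFun_lt' (g : Equiv.Perm GolayPt) (i : ℕ) : posFun g i < 24 := ptIdx_lt _

/-- Images of the first `k` base points. -/
def baseImages (g : Equiv.Perm GolayPt) (k : ℕ) : List ℕ :=
  (List.range k).map fun j => ptIdx (g (basePt j))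

/-- The tests are correct for a property; the full test may only look at positions below 24. -/
structure ScanTests (Pred : Equiv.Perm GolayPt → Prop) (ok : List ℕ → Bool)
    (full : (ℕ → ℕ) → Bool) : Prop where
  full_congr : ∀ f f' : ℕ → ℕ, (∀ i < 24, f i = f' i) → (∀ i < 24, f i < 24) → full f = full f'
  iff_full : ∀ g ∈ M24, Pred g ↔ full (posFun g) = true
  ok_of : ∀ g ∈ M24, Pred g → ∀ k ≤ 7, ok (baseImages g k) = true

theorem levelTab_eq : levelTab = (List.range 7).map fun k => (basePos k, transTab.getD k []) := by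
  decide +kernel

theorem RepPath.act_eq {P : List ℕ} {a : Equiv.Perm GolayPt} (h : RepPath P a) {i : ℕ}
    (hi : i < 24) : act P i = posFun a i := by
  rw [posFun, h, ptIdx_ptOf i hi]

theorem baseImages_congr {g a : Equiv.Perm GolayPt} {k : ℕ}
    (h : ∀ j < k, g (basePt j) = a (basePt j)) : baseImages g k = baseImages a k :=
  List.map_congr_left fun j hj => by rw [h j (List.mem_range.mp hj)]

theorem scanFrom_spec {Pred : Equiv.Perm GolayPt → Prop} {ok : List ℕ → Bool}
    {full : (ℕ → ℕ) → Bool} (ht : ScanTests Pred ok full) :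
    ∀ (n k : ℕ), k + n = 7 → ∀ (P : List ℕ) (a : Equiv.Perm GolayPt), a ∈ M24 → RepPath P a →
      (∀ Q ∈ scanFrom ok full (levelTab.drop k) P (baseImages a k), ∃ g ∈ M24, Pred g ∧
        RepPath Q g ∧ ∀ j < k, g (basePt j) = a (basePt j)) ∧
      (∀ g ∈ M24, Pred g → (∀ j < k, g (basePt j) = a (basePt j)) →
        ∃ Q ∈ scanFrom ok full (levelTab.drop k) P (baseImages a k), RepPath Q g) ∧
      (scanFrom ok full (levelTab.drop k) P (baseImages a k)).Nodup ∧
      ∀ Q ∈ scanFrom ok full (levelTab.drop k) P (baseImages a k),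
        ∀ Q' ∈ scanFrom ok full (levelTab.drop k) P (baseImages a k),
          ∀ g, RepPath Q g → RepPath Q' g → Q = Q' := by
  intro n
  induction n with
  | zero =>
    intro k hk P a ha hr
    obtain rfl : k = 7 := by omega
    rw [show levelTab.drop 7 = [] from rfl]
    have hf : full (act P) = full (posFun a) := ht.full_congr _ _ (fun i hi => hr.act_eq hi)
      fun i hi => (hr.act_eq hi).symm ▸ posFun_lt' a i
    unfold scanFrom
    refine ⟨?_, ?_, ?_, ?_⟩
    · intro Q hQ
      cases hc : full (act P) with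
      | false => rw [hc] at hQ; simp at hQ
      | true =>
        rw [hc, cond_true, List.mem_singleton] at hQ
        subst hQ
        exact ⟨a, ha, (ht.iff_full a ha).mpr (hf ▸ hc), hr, fun j _ => rfl⟩
    · intro g hg hp hagree
      have : g = a := by
        have h7 : a⁻¹ * g ∈ chainStab M24 7 := mem_chainStab.mpr
          ⟨mul_mem (inv_mem ha) hg, fun j hj => by
            rw [Equiv.Perm.mul_apply, Equiv.Perm.inv_eq_iff_eq]; exact hagree j hj⟩
        rw [chainStab_seven, Subgroup.mem_bot, inv_mul_eq_one] at h7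
        exact h7.symm
      subst this
      rw [hf, (ht.iff_full g hg).mp hp]
      exact ⟨P, by simp, hr⟩
    · cases full (act P) <;> simp
    · intro Q hQ Q' hQ' g _ _
      cases hc : full (act P) <;> rw [hc] at hQ hQ' <;> simp at hQ hQ'
      rw [hQ, hQ']
  | succ n ih =>
    intro k hk P a ha hr
    have hk7 : k < 7 := by omega
    have e : levelTab.drop k = (basePos k, transTab.getD k []) :: levelTab.drop (k + 1) := by
      rw [levelTab_eq, List.drop_eq_getElem_cons (by simpa using hk7)]
      simp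
    rw [e]
    unfold scanFrom
    have child : ∀ t ∈ transTab.getD k [], ∃ b, b ∈ chainStab M24 k ∧ Rep t b ∧
        RepPath (P ++ [t]) (a * b) ∧
        baseImages a k ++ [act P (papp t (basePos k))] = baseImages (a * b) (k + 1) := by
      intro t ht'
      obtain ⟨b, hb, hrb⟩ := exists_rep_level hk7 ht'
      refine ⟨b, hb, hrb, hr.append hrb, ?_⟩
      rw [baseImages, baseImages, List.range_succ, List.map_append, List.map_singleton]
      congr 1
      · exact List.map_congr_left fun j hj => by
          rw [Equiv.Perm.mul_apply, (mem_chainStab.mp hb).2 j (List.mem_range.mp hj)]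
      · rw [Equiv.Perm.mul_apply, hr, hrb, ptIdx_basePt k hk7]
    choose b hb1 hb2 hb3 him using child
    have hih := fun t (ht' : t ∈ transTab.getD k []) => ih (k + 1) (by omega) (P ++ [t])
      (a * b t ht') (mul_mem ha (mem_chainStab.mp (hb1 t ht')).1) (hb3 t ht')
    have agree : ∀ t (ht' : t ∈ transTab.getD k []), ∀ j < k,
        (a * b t ht') (basePt j) = a (basePt j) := fun t ht' j hj => by
      rw [Equiv.Perm.mul_apply, (mem_chainStab.mp (hb1 t ht')).2 j hj]
    have inner : ∀ t (ht' : t ∈ transTab.getD k []) (Q : List ℕ),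
        Q ∈ (bif ok (baseImages a k ++ [act P (papp t (basePos k))]) then
          scanFrom ok full (levelTab.drop (k + 1)) (P ++ [t])
            (baseImages a k ++ [act P (papp t (basePos k))]) else []) ↔
        ok (baseImages (a * b t ht') (k + 1)) = true ∧
          Q ∈ scanFrom ok full (levelTab.drop (k + 1)) (P ++ [t])
            (baseImages (a * b t ht') (k + 1)) := fun t ht' Q => by
      rw [him t ht']
      cases ok (baseImages (a * b t ht') (k + 1)) <;> simp
    have key : ∀ t (ht' : t ∈ transTab.getD k []), ∀ s (hs' : s ∈ transTab.getD k []),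
        ∀ Q ∈ scanFrom ok full (levelTab.drop (k + 1)) (P ++ [t]) (baseImages (a * b t ht') (k + 1)),
        ∀ Q' ∈ scanFrom ok full (levelTab.drop (k + 1)) (P ++ [s])
          (baseImages (a * b s hs') (k + 1)),
        ∀ g, RepPath Q g → RepPath Q' g → t = s := by
      intro t ht' s hs' Q hQ Q' hQ' g hg hg'
      obtain ⟨g1, -, -, hr1, h1⟩ := (hih t ht').1 Q hQ
      obtain ⟨g2, -, -, hr2, h2⟩ := (hih s hs').1 Q' hQ'
      rw [hr1.unique hg] at h1
      rw [hr2.unique hg'] at h2
      have hbb : b t ht' (basePt k) = b s hs' (basePt k) := a.injective (by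
        rw [← Equiv.Perm.mul_apply, ← h1 k (by omega), h2 k (by omega), Equiv.Perm.mul_apply])
      have h3 := congrArg ptIdx hbb
      rw [hb2, hb2, ptIdx_basePt k hk7] at h3
      exact List.inj_on_of_nodup_map (transTab_nodup k hk7) ht' hs' h3
    refine ⟨?_, ?_, ?_, ?_⟩
    · intro Q hQ
      obtain ⟨t, ht', hQ⟩ := List.mem_flatMap.mp hQ
      obtain ⟨g, hg, hp, hrQ, hag⟩ := (hih t ht').1 Q ((inner t ht' Q).mp hQ).2
      exact ⟨g, hg, hp, hrQ, fun j hj => (hag j (by omega)).trans (agree t ht' j hj)⟩
    · intro g hg hp hagree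
      have hin : a⁻¹ * g ∈ chainStab M24 k := mem_chainStab.mpr
        ⟨mul_mem (inv_mem ha) hg, fun j hj => by
          rw [Equiv.Perm.mul_apply, Equiv.Perm.inv_eq_iff_eq]; exact hagree j hj⟩
      obtain ⟨t, ht', het⟩ := transTab_cover k hk7 _ (isTarget_apply hk7 hin)
      have hbk : b t ht' (basePt k) = (a⁻¹ * g) (basePt k) := ptIdx_injective (by
        rw [hb2, ptIdx_basePt k hk7, het])
      have hag : ∀ j < k + 1, g (basePt j) = (a * b t ht') (basePt j) := fun j hj => by
        rcases Nat.lt_succ_iff_lt_or_eq.mp hj with hj | rfl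
        · rw [agree t ht' j hj, hagree j hj]
        · rw [Equiv.Perm.mul_apply, hbk, Equiv.Perm.mul_apply, Equiv.Perm.coe_inv,
            Equiv.apply_symm_apply]
      obtain ⟨Q, hQ, hrQ⟩ := (hih t ht').2.1 g hg hp hag
      refine ⟨Q, List.mem_flatMap.mpr ⟨t, ht', (inner t ht' Q).mpr ⟨?_, hQ⟩⟩, hrQ⟩
      rw [← baseImages_congr hag]
      exact ht.ok_of g hg hp (k + 1) (by omega)
    · refine List.nodup_flatMap.mpr ⟨fun t ht' => ?_, ?_⟩
      · rw [him t ht']
        cases ok (baseImages (a * b t ht') (k + 1))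
        · simp
        · exact (hih t ht').2.2.1
      refine ((transTab_nodup k hk7).of_map _).imp_of_mem ?_
      intro t s ht' hs' hne Q hQ hQ'
      have h1 := ((inner t ht' Q).mp hQ).2
      obtain ⟨g, -, -, hrQ, -⟩ := (hih t ht').1 Q h1
      exact hne (key t ht' s hs' Q h1 Q ((inner s hs' Q).mp hQ').2 g hrQ hrQ)
    · intro Q hQ Q' hQ' g hg hg'
      obtain ⟨t, ht', hQ⟩ := List.mem_flatMap.mp hQ
      obtain ⟨s, hs', hQ'⟩ := List.mem_flatMap.mp hQ'
      have h1 := ((inner t ht' Q).mp hQ).2
      have h2 := ((inner s hs' Q').mp hQ').2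
      obtain rfl := key t ht' s hs' Q h1 Q' h2 g hg hg'
      exact (hih t ht').2.2.2 Q h1 Q' h2 g hg hg'

theorem scan_spec {Pred : Equiv.Perm GolayPt → Prop} {ok : List ℕ → Bool}
    {full : (ℕ → ℕ) → Bool} (ht : ScanTests Pred ok full) :
    (∀ Q ∈ scan ok full, ∃ g ∈ M24, Pred g ∧ RepPath Q g) ∧
    (∀ g ∈ M24, Pred g → ∃ Q ∈ scan ok full, RepPath Q g) ∧ (scan ok full).Nodup ∧
    ∀ Q ∈ scan ok full, ∀ Q' ∈ scan ok full, ∀ g, RepPath Q g → RepPath Q' g → Q = Q' := by
  obtain ⟨h1, h2, h3, h4⟩ := scanFrom_spec ht 7 0 rfl [] 1 (one_mem _) repPath_nil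
  exact ⟨fun Q hQ => by obtain ⟨g, a, b, c, -⟩ := h1 Q hQ; exact ⟨g, a, b, c⟩,
    fun g hg hp => h2 g hg hp (fun _ hj => absurd hj (Nat.not_lt_zero _)), h3, h4⟩

/-- The number of solutions. -/
theorem scan_card {Pred : Equiv.Perm GolayPt → Prop} {ok : List ℕ → Bool}
    {full : (ℕ → ℕ) → Bool} (ht : ScanTests Pred ok full) :
    Nat.card {g : Equiv.Perm GolayPt // g ∈ M24 ∧ Pred g} = (scan ok full).length := by
  obtain ⟨hs, hc, hnd, hu⟩ := scan_spec ht
  choose f hf1 hf2 hf3 using fun (i : Fin (scan ok full).length) => hs _ (List.getElem_mem i.isLt)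
  let F : Fin (scan ok full).length → {g : Equiv.Perm GolayPt // g ∈ M24 ∧ Pred g} :=
    fun i => ⟨f i, hf1 i, hf2 i⟩
  have hb : Function.Bijective F := by
    refine ⟨fun i j h => Fin.ext ?_, fun g => ?_⟩
    · have h' : f i = f j := congrArg Subtype.val h
      exact (hnd.getElem_inj_iff).mp (hu _ (List.getElem_mem i.isLt) _ (List.getElem_mem j.isLt)
        (f i) (hf3 i) (h' ▸ hf3 j))
    · obtain ⟨Q, hQ, hr⟩ := hc g g.2.1 g.2.2
      obtain ⟨i, hi, rfl⟩ := List.mem_iff_getElem.mp hQ
      exact ⟨⟨i, hi⟩, Subtype.ext ((hf3 ⟨i, hi⟩).unique hr)⟩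
  rw [← Nat.card_eq_of_bijective F hb, Nat.card_fin]

/-- An element of M24 is determined by the images of the base. -/
theorem eq_of_base {g h : Equiv.Perm GolayPt} (hg : g ∈ M24) (hh : h ∈ M24)
    (he : ∀ j < 7, g (basePt j) = h (basePt j)) : g = h := by
  have h7 : h⁻¹ * g ∈ chainStab M24 7 := mem_chainStab.mpr
    ⟨mul_mem (inv_mem hh) hg, fun j hj => by
      rw [Equiv.Perm.mul_apply, Equiv.Perm.inv_eq_iff_eq]; exact he j hj⟩
  rw [chainStab_seven, Subgroup.mem_bot, inv_mul_eq_one] at h7
  exact h7.symm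

theorem basePos_eq : baseList = (List.range 7).map basePos := by decide +kernel

/-- A test on the seven base positions. -/
def allBase (f : ℕ → Bool) : Bool := baseList.all f

theorem allBase_iff {f : ℕ → Bool} : allBase f = true ↔ ∀ j < 7, f (basePos j) = true := by
  simp [allBase, basePos_eq, List.all_eq_true]

theorem allBase_congr {f f' : ℕ → Bool} (h : ∀ j < 7, f (basePos j) = f' (basePos j)) :
    allBase f = allBase f' := by
  rw [Bool.eq_iff_iff, allBase_iff, allBase_iff]
  exact forall_congr' fun j => ⟨fun e hj => h j hj ▸ e hj, fun e hj => (h j hj).symm ▸ e hj⟩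

theorem posFun_ptIdx (g : Equiv.Perm GolayPt) (p : GolayPt) :
    posFun g (ptIdx p) = ptIdx (g p) := by
  rw [posFun, ptOf_ptIdx]

theorem posFun_lt (g : Equiv.Perm GolayPt) (i : ℕ) : posFun g i < 24 := ptIdx_lt _

theorem baseImages_getD (g : Equiv.Perm GolayPt) {j k : ℕ} (hj : j < k) :
    (baseImages g k).getD j 0 = ptIdx (g (basePt j)) := by
  rw [baseImages, List.getD_eq_getElem _ _ (by simpa using hj)]
  simp

theorem baseImages_length (g : Equiv.Perm GolayPt) (k : ℕ) : (baseImages g k).length = k := by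
  simp [baseImages]

/-- Pruning by a list of constraints on the `j`-th image. -/
def imgOK (im : List ℕ) (j : ℕ) (p : ℕ → Bool) : Bool :=
  Nat.ble im.length j || p (im.getD j 0)

theorem imgOK_baseImages (g : Equiv.Perm GolayPt) (k j : ℕ) (p : ℕ → Bool)
    (h : p (ptIdx (g (basePt j))) = true) : imgOK (baseImages g k) j p = true := by
  rw [imgOK, baseImages_length, Bool.or_eq_true, Nat.ble_eq]
  by_cases hj : j < k
  · right; rw [baseImages_getD g hj]; exact h
  · left; omega

/-- Iterates of a map of positions. -/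
def powBase (f : ℕ → ℕ) : ℕ → ℕ → ℕ
  | 0, i => i
  | n + 1, i => f (powBase f n i)

theorem powBase_eq (g : Equiv.Perm GolayPt) (n : ℕ) (p : GolayPt) :
    powBase (posFun g) n (ptIdx p) = ptIdx ((g ^ n) p) := by
  induction n with
  | zero => simp [powBase]
  | succ n ih => rw [powBase, ih, posFun_ptIdx, pow_succ', Equiv.Perm.mul_apply]

theorem powBase_congr {f f' : ℕ → ℕ} (h : ∀ i < 24, f i = f' i) (h24 : ∀ i < 24, f i < 24)
    (n : ℕ) : ∀ i < 24, powBase f n i = powBase f' n i ∧ powBase f n i < 24 := by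
  intro i hi
  induction n with
  | zero => exact ⟨rfl, hi⟩
  | succ n ih =>
    simp only [powBase]
    exact ⟨by rw [← ih.1, h _ ih.2], h24 _ ih.2⟩

end Cfsg.Agent.M24
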